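import Mathlib
import Cfsg.Agent.H478.RC.VecB
import Cfsg.Agent.H478.RC.Col
import Cfsg.Agent.H478.RC.Sub

/-!
# `Lin` from `Core` and `Rat` (S4191)
-/

set_option autoImplicit false
set_option linter.unusedSectionVars false
set_option linter.style.haveILetI false

namespace Cfsg.Agent.H478.RC

open Cfsg.Agent.H527.RC Cfsg.Agent.Omega.EH3.Clif MulAction
open scoped commutatorElement

universe u

variable {H V : Type u} [Group H] [AddCommGroup V] [DistribMulAction H V] {L : Subgroup H}

/-- labels on a simple submodule -/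
def Lab (p t q : ℕ) [Fact p.Prime] (Z : Set ℕ) [Finite V] [L.Normal] (U : Submodule (RL V L) V)
    (hU : IsSimpleModule (RL V L) U) : Prop :=
  ∃ g : ℕ → U, (∀ j, j ∉ Z → g j ≠ 0) ∧ (FH t (Lt U p hU) ∨
    ((∀ j < q, Gd (V := U) p t (Lt U p hU) (g j)) ∧ ∀ i < q, ∀ j < q, ∀ γ : Gam U, γ • g i = g j → i = j))

section labels

variable [Finite V] [L.Normal] {p t m : ℕ} [Fact p.Prime] (U : Submodule (RL V L) V) (hU : IsSimpleModule (RL V L) U)

theorem lab_odd {k : ℕ} (hmt : m ≤ t) (hk : 2 ≤ k)
    (h : FH m (Lt U p hU) ∨ Orbs (Gam U) k (Gd (V := U) p t (Lt U p hU))) : Lab p t 2 {1} U hU := by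
  classical
  haveI := hU
  haveI : Nontrivial U := IsSimpleModule.nontrivial (RL V L) U
  rcases h with h | ⟨f, hf1, hf2⟩
  · obtain ⟨u, hu⟩ := exists_ne (0 : U)
    exact ⟨fun _ => u, fun _ _ => hu, Or.inl (FH.mono hmt h)⟩
  · set i0 : Fin k := ⟨0, by omega⟩ with hi0
    set i1 : Fin k := ⟨1, by omega⟩ with hi1
    have h01 : i0 ≠ i1 := by
      intro h
      have := congrArg Fin.val h
      simp [hi0, hi1] at this
    -- a labelling from two indices
    have key : ∀ a b : Fin k, a ≠ b → f a ≠ 0 → Lab p t 2 {1} U hU := by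
      intro a b hab ha
      refine ⟨fun j => if j = 1 then f b else f a, ?_, Or.inr ⟨?_, ?_⟩⟩
      · intro j hj
        simp only [Set.mem_singleton_iff] at hj
        change (if j = 1 then f b else f a) ≠ 0; rw [if_neg hj]
        exact ha
      · intro j _
        simp only
        split_ifs
        · exact hf1 b
        · exact hf1 a
      · intro i hi j hj γ hγ
        have h1 : i = 0 ∨ i = 1 := by omega
        have h2 : j = 0 ∨ j = 1 := by omega
        rcases h1 with rfl | rfl <;> rcases h2 with rfl | rfl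
        · rfl
        · exact absurd (hf2 _ _ γ hγ) hab
        · exact absurd (hf2 _ _ γ hγ) hab.symm
        · rfl
    by_cases h0 : f i0 = 0
    · refine key i1 i0 h01.symm ?_
      intro h1
      apply h01
      apply hf2 _ _ (1 : Gam U)
      rw [one_smul, h0, h1]
    · exact key i0 i1 h01 h0

theorem lab_two (hmt : m ≤ t)
    (h : FH m (Lt U p hU) ∨ Orbs (Gam U) 4 (Gd (V := U) p t (Lt U p hU))) : Lab p t 3 ∅ U hU := by
  classical
  haveI := hU
  haveI : Nontrivial U := IsSimpleModule.nontrivial (RL V L) U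
  obtain ⟨u, hu⟩ := exists_ne (0 : U)
  rcases h with h | ⟨f, hf1, hf2⟩
  · exact ⟨fun _ => u, fun _ _ => hu, Or.inl (FH.mono hmt h)⟩
  · obtain ⟨i0, hi0⟩ : ∃ i0 : Fin 4, ∀ i, f i = 0 → i = i0 := by
      by_cases h : ∃ i, f i = 0
      · obtain ⟨i0, hi0⟩ := h
        refine ⟨i0, fun i hi => ?_⟩
        apply hf2 _ _ (1 : Gam U)
        rw [one_smul, hi, hi0]
      · push Not at h
        exact ⟨0, fun i hi => absurd hi (h i)⟩
    refine ⟨fun j => if h : j < 3 then f (i0.succAbove ⟨j, h⟩) else u, ?_, Or.inr ⟨?_, ?_⟩⟩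
    · intro j _
      simp only
      split_ifs with h
      · intro h1
        exact Fin.succAbove_ne i0 _ (hi0 _ h1)
      · exact hu
    · intro j hj
      simp only [dif_pos hj]
      exact hf1 _
    · intro i hi j hj γ hγ
      simp only [dif_pos hi, dif_pos hj] at hγ
      have h1 := hf2 _ _ γ hγ
      have h2 := Fin.succAbove_right_injective h1
      exact congrArg Fin.val h2

end labels

section fix

variable {B : Subgroup H}

/-- the stabilizer of an embedding -/
def St (B : Subgroup H) {W : Submodule (RL V L) V} (f : W →ₗ[RL V L] V) : Subgroup B where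
  carrier := {b | ∀ w, (b : H) • f w = f w}
  one_mem' w := one_smul H _
  mul_mem' := by
    intro a b ha hb w
    change ((a : H) * (b : H)) • f w = f w
    rw [mul_smul, hb w, ha w]
  inv_mem' := by
    intro a ha w
    change (a : H)⁻¹ • f w = f w
    rw [inv_smul_eq_iff, ha w]

theorem mem_St {W : Submodule (RL V L) V} {f : W →ₗ[RL V L] V} {b : B} : b ∈ St B f ↔ ∀ w, (b : H) • f w = f w := Iff.rfl

theorem nu_le_of_le [Finite H] {p : ℕ} {X Y : Subgroup B} (h : X ≤ Y) :
    (Nat.card X).factorization p ≤ (Nat.card Y).factorization p :=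
  (Nat.factorization_le_iff_dvd Nat.card_pos.ne' Nat.card_pos.ne').2 (Subgroup.card_dvd_of_le h) p

theorem nu_add [Finite H] {p : ℕ} (X : Subgroup B) :
    (Nat.card B).factorization p = (Nat.card X).factorization p + X.index.factorization p := by
  rw [← X.card_mul_index, Nat.factorization_mul Nat.card_pos.ne' Subgroup.index_ne_zero_of_finite, Finsupp.add_apply]

theorem exists_f [Finite V] [Finite H] [L.Normal] {p a b : ℕ} [Fact p.Prime] (hRat : Cfsg.Agent.H527.RC.Rat.{u} p a b) (hBp : IsPGroup p B)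
    (hBL : ∀ x ∈ B, ∀ y ∈ L, x * y = y * x) (hpV : ¬ p ∣ Nat.card V) (hf : ∀ h : H, (∀ v : V, h • v = v) → h = 1)
    (hss : IsSemisimpleModule (RL V L) V) (W : CI V L → Submodule (RL V L) V) (hW : ∀ c, IsSimpleModule (RL V L) (W c))
    (hWc : ∀ c : CI V L, (c : Submodule (RL V L) V) = isotypicComponent (RL V L) V (W c)) :
    ∃ f : ∀ c, W c →ₗ[RL V L] V, (∀ c, f c ≠ 0) ∧
      b * (Nat.card (⨅ c, St B (f c) : Subgroup B)).factorization p ≤ a * (Nat.card B).factorization p := by
  classical
  haveI : SMulCommClass (RL V L) B V := ⟨fun r b v => comm_smul (fun l hl => hBL b b.2 l hl) r v⟩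
  haveI : Finite (∀ c : CI V L, (W c →ₗ[RL V L] V)) := inferInstance
  have hp : p.Prime := Fact.out
  have h1 : ¬ p ∣ Nat.card (∀ c : CI V L, (W c →ₗ[RL V L] V)) := by
    intro hd
    obtain ⟨x, hx⟩ := exists_prime_addOrderOf_dvd_card' p hd
    have hx0 : x ≠ 0 := by
      rintro rfl
      rw [addOrderOf_zero] at hx
      exact hp.one_lt.ne hx
    have hpx : p • x = 0 := by
      rw [← hx]
      exact addOrderOf_nsmul_eq_zero x
    obtain ⟨c, hc⟩ := Function.ne_iff.1 hx0
    have hc' : x c ≠ 0 := hc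
    obtain ⟨w, hw⟩ : ∃ w, x c w ≠ 0 := by
      by_contra h
      push Not at h
      exact hc' (LinearMap.ext h)
    have hpw : p • (x c w) = 0 := by
      have h2 := congrFun hpx c
      have h3 := congrArg (fun φ : W c →ₗ[RL V L] V => φ w) h2
      exact h3
    have h4 : addOrderOf (x c w) = p := addOrderOf_eq_prime hpw hw
    exact hpV (by rw [← h4]; exact addOrderOf_dvd_natCard _)
  have h2 : ∀ g : B, (∀ v : (∀ c : CI V L, (W c →ₗ[RL V L] V)), g • v = v) → g = 1 := by
    intro g hg
    apply Subtype.ext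
    apply hf
    apply all_of_simple hss
    · exact smul_zero _
    · intro v w hv hw
      rw [smul_add, hv, hw]
    · intro m hm v hv
      let c : CI V L := ⟨isotypicComponent (RL V L) V m, m, hm, rfl⟩
      haveI := hm
      haveI := hW c
      have h1 : m ≤ isotypicComponent (RL V L) V (W c) := by
        rw [← hWc c]
        exact m.le_isotypicComponent
      obtain ⟨e⟩ := isIsotypicOfType_submodule_iff.1 (IsIsotypicOfType.isotypicComponent (RL V L) V (W c)) _ h1
      have h3 := congrFun (hg (Function.update 0 c (m.subtype.comp e.symm.toLinearMap))) c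
      have h4 := congrArg (fun φ : W c →ₗ[RL V L] V => φ (e ⟨v, hv⟩)) h3
      simp only [Pi.smul_apply, Function.update_self, LinearMap.smul_apply] at h4
      have h5 : (m.subtype.comp e.symm.toLinearMap) (e ⟨v, hv⟩) = v := by simp
      rw [h5] at h4
      exact h4
  obtain ⟨f0, hf0⟩ := hRat B (∀ c : CI V L, (W c →ₗ[RL V L] V)) hBp h1 h2
  refine ⟨fun c => if f0 c = 0 then (W c).subtype else f0 c, ?_, ?_⟩
  · intro c
    simp only
    split_ifs with h
    · intro h3
      haveI := hW c
      haveI : Nontrivial (W c) := IsSimpleModule.nontrivial (RL V L) (W c)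
      obtain ⟨w, hw⟩ := exists_ne (0 : W c)
      apply hw
      apply Subtype.ext
      exact congrArg (fun φ : W c →ₗ[RL V L] V => φ w) h3
    · exact h
  · refine le_trans (Nat.mul_le_mul_left b (nu_le_of_le ?_)) hf0
    intro g hg
    rw [Subgroup.mem_iInf] at hg
    rw [mem_stabilizer_iff]
    funext c
    ext w
    have h3 := hg c
    rw [mem_St] at h3
    change (g : H) • f0 c w = f0 c w
    by_cases h : f0 c = 0
    · rw [h]
      exact smul_zero _
    · have h4 := h3 w
      simp only [if_neg h] at h4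
      exact h4

end fix

theorem smul_of_mem [Finite V] [hL : L.Normal] {l : H} (hl : l ∈ L) (c : CI V L) : l • c = c := by
  apply Subtype.ext
  ext v
  rw [mem_smul_comp]
  constructor
  · intro h
    have := inv_of_sub _ hl h
    rwa [smul_inv_smul] at this
  · intro h
    exact inv_of_sub _ (L.inv_mem hl) h

theorem pact [Finite V] {p : ℕ} (hLP : LP p L) [L.Normal] : PAct p H (CI V L) := by
  intro h
  obtain ⟨k, hk⟩ := hLP.isP h
  exact ⟨k, fun c => smul_of_mem hk c⟩

/-- **The data exist.** -/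
theorem exists_dat [Finite V] [Finite H] [L.Normal] {p t q a b : ℕ} [Fact p.Prime] {Z : Set ℕ} {B : Subgroup H}
    (hlab : ∀ (U : Submodule (RL V L) V) (hU : IsSimpleModule (RL V L) U), Lab p t q Z U hU)
    (hRat : Cfsg.Agent.H527.RC.Rat.{u} p a b) (hBp : IsPGroup p B)
    (hBL : ∀ x ∈ B, ∀ y ∈ L, x * y = y * x) (hpV : ¬ p ∣ Nat.card V) (hf : ∀ h : H, (∀ v : V, h • v = v) → h = 1)
    (hss : IsSemisimpleModule (RL V L) V) :
    ∃ D : Dat V L p t q Z, b * (Nat.card (⨅ c, St B (D.f c) : Subgroup B)).factorization p ≤ a * (Nat.card B).factorization p := by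
  classical
  choose S hS1 hS2 using fun c : CI V L => c.2
  let o : CI V L → CI V L := fun c => Quotient.out (⟦c⟧ : orbitRel.Quotient H (CI V L))
  have ho : ∀ c, ∃ h : H, h • o c = c := by
    intro c
    have h1 : (orbitRel H (CI V L)) (o c) c := Quotient.mk_out (s := orbitRel H (CI V L)) c
    obtain ⟨h, hh⟩ := h1
    exact ⟨h⁻¹, by rw [inv_smul_eq_iff]; exact hh.symm⟩
  choose hh ho using ho
  have hinv : ∀ (y : H) c, o (y • c) = o c := by
    intro y c
    have h1 : (⟦y • c⟧ : orbitRel.Quotient H (CI V L)) = ⟦c⟧ := Quotient.sound ⟨y, rfl⟩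
    change Quotient.out (⟦y • c⟧ : orbitRel.Quotient H (CI V L)) = _
    rw [h1]
  choose g hg1 hg2 using fun c => hlab (S c) (hS1 c)
  have hWc : ∀ c : CI V L, (c : Submodule (RL V L) V) = isotypicComponent (RL V L) V (cj (hh c) (S (o c))) := by
    intro c
    have h1 := congrArg (fun c : CI V L => (c : Submodule (RL V L) V)) (ho c)
    rw [← cj_comp, ← hS2]
    exact h1.symm
  obtain ⟨f, hf1, hf2⟩ := exists_f hRat hBp hBL hpV hf hss (fun c => cj (hh c) (S (o c)))
    (fun c => cj_simple _ (hS1 _)) hWc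
  exact ⟨⟨S, hS1, hS2, o, hh, ho, hinv, g, hg1, f, hf1, hg2⟩, hf2⟩

end Cfsg.Agent.H478.RC
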