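import Mathlib
import Cfsg.Agent.Omega.EH3.Clif.Iso
import Cfsg.Agent.H478.RC.FHt

/-!
# The ring generated by a normal subgroup and its isotypic components (S4191, piece `lin_of_core`)
-/

set_option autoImplicit false
set_option linter.unusedSectionVars false
set_option linter.style.haveILetI false

namespace Cfsg.Agent.H478.RC

open Cfsg.Agent.H527.RC Cfsg.Agent.Omega.EH3.Clif

section ring

variable {H : Type*} (V : Type*) [Group H] [AddCommGroup V] [DistribMulAction H V]

/-- the ring generated by `L` -/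
def RL (L : Subgroup H) : Subring (AddMonoid.End V) :=
  Subring.closure (Set.range fun l : L => DistribMulAction.toAddMonoidEnd H V l)

variable {V} {L : Subgroup H}

/-- an element of `L` in the ring -/
def lr (l : H) (hl : l ∈ L) : RL V L := ⟨DistribMulAction.toAddMonoidEnd H V l, Subring.subset_closure ⟨⟨l, hl⟩, rfl⟩⟩

theorem lr_smul {l : H} (hl : l ∈ L) (v : V) : (lr l hl : RL V L) • v = l • v := rfl

theorem coe_smul (r : RL V L) (v : V) : r • v = (r : AddMonoid.End V) v := rfl

theorem coe_lr_smul {M : Submodule (RL V L) V} {l : H} (hl : l ∈ L) (m : M) : (((lr l hl : RL V L) • m : M) : V) = l • (m : V) := rfl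

theorem inv_of_sub (M : Submodule (RL V L) V) {l : H} (hl : l ∈ L) {v : V} (hv : v ∈ M) : l • v ∈ M :=
  M.smul_mem (lr l hl) hv

/-- invariant subgroups are submodules -/
def ofInv (W : AddSubgroup V) (hW : ∀ l ∈ L, ∀ w ∈ W, l • w ∈ W) : Submodule (RL V L) V where
  carrier := W
  add_mem' := W.add_mem
  zero_mem' := W.zero_mem
  smul_mem' := by
    rintro ⟨r, hr⟩ w hw
    change r w ∈ W
    induction hr using Subring.closure_induction generalizing w with
    | mem x hx =>
      obtain ⟨l, rfl⟩ := hx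
      exact hW l l.2 w hw
    | zero => exact W.zero_mem
    | one => exact hw
    | add x y _ _ hx hy => exact W.add_mem (hx hw) (hy hw)
    | neg x _ hx => exact W.neg_mem (hx hw)
    | mul x y _ _ hx hy => exact hx (hy hw)

theorem mem_ofInv {W : AddSubgroup V} {hW : ∀ l ∈ L, ∀ w ∈ W, l • w ∈ W} {v : V} : v ∈ ofInv W hW ↔ v ∈ W := Iff.rfl

theorem linear_of (M : Submodule (RL V L) V) (f : M →+ V) (hf : ∀ l (hl : l ∈ L) (m : M), f ((lr l hl : RL V L) • m) = l • f m)
    (r : RL V L) (m : M) : f (r • m) = r • f m := by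
  obtain ⟨r, hr⟩ := r
  have key : ∀ r (hr : r ∈ RL V L) (m : M), f ((⟨r, hr⟩ : RL V L) • m) = r (f m) := by
    intro r hr
    induction hr using Subring.closure_induction with
    | mem x hx =>
      intro m
      obtain ⟨l, rfl⟩ := hx
      exact hf l l.2 m
    | zero =>
      intro m
      have h1 : ((⟨0, Subring.zero_mem _⟩ : RL V L) • m) = 0 := zero_smul (RL V L) m
      exact (congrArg f h1).trans (map_zero f)
    | one =>
      intro m
      have h1 : ((⟨1, Subring.one_mem _⟩ : RL V L) • m) = m := one_smul (RL V L) m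
      exact congrArg f h1
    | add x y hx' hy' hx hy =>
      intro m
      have h1 : ((⟨x + y, Subring.add_mem _ hx' hy'⟩ : RL V L) • m) = (⟨x, hx'⟩ : RL V L) • m + (⟨y, hy'⟩ : RL V L) • m :=
        add_smul (⟨x, hx'⟩ : RL V L) (⟨y, hy'⟩ : RL V L) m
      exact (congrArg f h1).trans ((map_add f _ _).trans (by rw [hx, hy]; rfl))
    | neg x hx' hx =>
      intro m
      have h1 : ((⟨-x, Subring.neg_mem _ hx'⟩ : RL V L) • m) = -((⟨x, hx'⟩ : RL V L) • m) := neg_smul (⟨x, hx'⟩ : RL V L) m
      exact (congrArg f h1).trans ((map_neg f _).trans (by rw [hx]; rfl))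
    | mul x y hx' hy' hx hy =>
      intro m
      have h1 : ((⟨x * y, Subring.mul_mem _ hx' hy'⟩ : RL V L) • m) = (⟨x, hx'⟩ : RL V L) • (⟨y, hy'⟩ : RL V L) • m :=
        mul_smul (⟨x, hx'⟩ : RL V L) (⟨y, hy'⟩ : RL V L) m
      exact (congrArg f h1).trans (by rw [hx, hy]; rfl)
  exact key r hr m

/-- an additive map commuting with `L` as a linear map -/
def toLin (M : Submodule (RL V L) V) (f : M →+ V) (hf : ∀ l (hl : l ∈ L) (m : M), f ((lr l hl : RL V L) • m) = l • f m) :
    M →ₗ[RL V L] V where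
  toFun := f
  map_add' := map_add f
  map_smul' := linear_of M f hf

theorem nor [hL : L.Normal] (h : H) : Nor (RL V L) (DistribMulAction.toAddEquiv V h) := by
  have key : ∀ (h : H) (r : AddMonoid.End V), r ∈ RL V L → ∃ r' : RL V L, ∀ v, r (h • v) = h • (r' • v) := by
    intro h r hr
    induction hr using Subring.closure_induction with
    | mem x hx =>
      obtain ⟨l, rfl⟩ := hx
      refine ⟨lr (h⁻¹ * l * h) (by simpa using hL.conj_mem l l.2 h⁻¹), ?_⟩
      intro v
      rw [lr_smul, ← mul_smul]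
      change (l : H) • h • v = _
      rw [← mul_smul]
      congr 1
      group
    | zero => exact ⟨0, fun v => by rw [zero_smul, smul_zero]; rfl⟩
    | one => exact ⟨1, fun v => by rw [one_smul]; rfl⟩
    | add x y _ _ hx hy =>
      obtain ⟨x', hx'⟩ := hx
      obtain ⟨y', hy'⟩ := hy
      exact ⟨x' + y', fun v => by rw [add_smul, smul_add, ← hx', ← hy']; rfl⟩
    | neg x _ hx =>
      obtain ⟨x', hx'⟩ := hx
      exact ⟨-x', fun v => by rw [neg_smul, smul_neg, ← hx']; rfl⟩
    | mul x y _ _ hx hy =>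
      obtain ⟨x', hx'⟩ := hx
      obtain ⟨y', hy'⟩ := hy
      exact ⟨x' * y', fun v => by rw [mul_smul, ← hx', ← hy']; rfl⟩
  refine ⟨fun r => ?_, fun r => ?_⟩
  · obtain ⟨r', hr'⟩ := key h r r.2
    exact ⟨r', hr'⟩
  · obtain ⟨r', hr'⟩ := key h⁻¹ r r.2
    exact ⟨r', hr'⟩

/-- the conjugate submodule -/
def cj [L.Normal] (h : H) (M : Submodule (RL V L) V) : Submodule (RL V L) V := cs _ (nor h) M

theorem mem_cj [L.Normal] {h : H} {M : Submodule (RL V L) V} {v : V} : v ∈ cj h M ↔ h⁻¹ • v ∈ M := Iff.rfl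

theorem smul_mem_cj [L.Normal] {h : H} {M : Submodule (RL V L) V} {v : V} : h • v ∈ cj h M ↔ v ∈ M := by
  rw [mem_cj, inv_smul_smul]

theorem cj_simple [L.Normal] (h : H) {M : Submodule (RL V L) V} (hM : IsSimpleModule (RL V L) M) :
    IsSimpleModule (RL V L) (cj h M) := cs_simple _ hM

theorem cs_comp_le {R : Type*} [Ring R] [Module R V] (g : V ≃+ V) (hg : Nor R g) (S : Submodule R V) :
    cs g hg (isotypicComponent R V S) ≤ isotypicComponent R V (cs g hg S) := by
  have h1 : cs g hg (isotypicComponent R V S) = csIso g hg (sSup {m | Nonempty (m ≃ₗ[R] S)}) := rfl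
  rw [h1, OrderIso.map_sSup]
  apply iSup₂_le
  rintro m ⟨φ⟩
  exact le_sSup ⟨ctEquiv g hg φ⟩

theorem cs_comp {R : Type*} [Ring R] [Module R V] (g : V ≃+ V) (hg : Nor R g) (S : Submodule R V) :
    cs g hg (isotypicComponent R V S) = isotypicComponent R V (cs g hg S) := by
  apply le_antisymm (cs_comp_le g hg S)
  have h1 := cs_mono hg (cs_comp_le g.symm hg.symm (cs g hg S))
  have h2 := cs_cs_symm hg (isotypicComponent R V (cs g hg S))
  rw [h2] at h1
  have h3 : cs g.symm hg.symm (cs g hg S) = S := cs_symm_cs hg S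
  rw [h3] at h1
  exact h1

theorem cj_comp [L.Normal] (h : H) (S : Submodule (RL V L) V) :
    cj h (isotypicComponent (RL V L) V S) = isotypicComponent (RL V L) V (cj h S) := cs_comp _ _ S

theorem cj_mem [L.Normal] (h : H) {c : Submodule (RL V L) V} (hc : c ∈ isotypicComponents (RL V L) V) :
    cj h c ∈ isotypicComponents (RL V L) V := by
  obtain ⟨S, hS, rfl⟩ := hc
  exact ⟨cj h S, cj_simple h hS, cj_comp h S⟩

/-- the group permutes the isotypic components -/
instance compAct [L.Normal] : MulAction H (isotypicComponents (RL V L) V) where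
  smul h c := ⟨cj h c, cj_mem h c.2⟩
  one_smul c := by
    apply Subtype.ext
    ext v
    change (1 : H)⁻¹ • v ∈ (c : Submodule (RL V L) V) ↔ _
    rw [inv_one, one_smul]
  mul_smul g h c := by
    apply Subtype.ext
    ext v
    change (g * h)⁻¹ • v ∈ (c : Submodule (RL V L) V) ↔ h⁻¹ • g⁻¹ • v ∈ (c : Submodule (RL V L) V)
    rw [mul_inv_rev, mul_smul]

theorem mem_smul_comp [L.Normal] {h : H} {c : isotypicComponents (RL V L) V} {v : V} :
    v ∈ ((h • c : isotypicComponents (RL V L) V) : Submodule (RL V L) V) ↔ h⁻¹ • v ∈ (c : Submodule (RL V L) V) := Iff.rfl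

theorem smul_mem_comp [L.Normal] {h : H} {c : isotypicComponents (RL V L) V} {v : V} :
    h • v ∈ ((h • c : isotypicComponents (RL V L) V) : Submodule (RL V L) V) ↔ v ∈ (c : Submodule (RL V L) V) := by
  rw [mem_smul_comp, inv_smul_smul]

/-- **Clifford**: complete reducibility passes to normal subgroups -/
theorem semisimple [Finite V] [L.Normal]
    (hcr : ∀ X : AddSubgroup V, (∀ h : H, ∀ x ∈ X, h • x ∈ X) →
      ∃ Y : AddSubgroup V, (∀ h : H, ∀ y ∈ Y, h • y ∈ Y) ∧ X ⊓ Y = ⊥ ∧ X ⊔ Y = ⊤) :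
    IsSemisimpleModule (RL V L) V := by
  haveI : Finite (Submodule (RL V L) V) := finite_sub
  rw [← sSup_simples_eq_top_iff_isSemisimpleModule]
  set T : Submodule (RL V L) V := sSup {m | IsSimpleModule (RL V L) m} with hT
  have hT1 : ∀ h : H, cj h T ≤ T := by
    intro h
    have h1 : cj h T = csIso _ (nor h) T := rfl
    rw [h1, hT, OrderIso.map_sSup]
    apply iSup₂_le
    intro m hm
    exact le_sSup (cj_simple h hm)
  have hT2 : ∀ h : H, ∀ x ∈ T.toAddSubgroup, h • x ∈ T.toAddSubgroup := by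
    intro h x hx
    apply hT1 h
    rw [smul_mem_cj]
    exact hx
  obtain ⟨Y, hY1, hY2, hY3⟩ := hcr T.toAddSubgroup hT2
  have hY : Y = ⊥ := by
    by_contra hne
    let Y' : Submodule (RL V L) V := ofInv Y (fun l _ => hY1 l)
    have hY' : Y' ≠ ⊥ := by
      intro h
      apply hne
      ext v
      rw [AddSubgroup.mem_bot, ← Submodule.mem_bot (R := RL V L), ← h]
      rfl
    obtain ⟨a, ha, haY⟩ := (IsAtomic.eq_bot_or_exists_atom_le Y').resolve_left hY'
    have ha2 : a ≤ T := le_sSup (isSimpleModule_iff_isAtom.2 ha)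
    apply ha.1
    rw [eq_bot_iff]
    intro v hv
    have h1 : v ∈ T.toAddSubgroup ⊓ Y := ⟨ha2 hv, haY hv⟩
    rw [hY2] at h1
    exact h1
  rw [hY, sup_bot_eq] at hY3
  rw [eq_top_iff]
  intro v _
  have h1 : v ∈ T.toAddSubgroup := by rw [hY3]; trivial
  exact h1

end ring

end Cfsg.Agent.H478.RC
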