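import Mathlib
import Cfsg.Agent.H478.RC.Loc

/-!
# The vector attached to a colouring of the isotypic components (S4191, piece `lin_of_core`)
-/

set_option autoImplicit false
set_option linter.unusedSectionVars false
set_option linter.style.haveILetI false

namespace Cfsg.Agent.H478.RC

open Cfsg.Agent.H527.RC Cfsg.Agent.Omega.EH3.Clif

universe u

section

variable {H : Type u} (V : Type u) [Group H] [AddCommGroup V] [DistribMulAction H V] (L : Subgroup H)

/-- the isotypic components -/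
abbrev CI : Type u := isotypicComponents (RL V L) V

variable [Finite V] [L.Normal]

/-- the data: simple submodules, representatives, labels, embeddings -/
structure Dat (p t q : ℕ) [Fact p.Prime] (Z : Set ℕ) where
  S : CI V L → Submodule (RL V L) V
  simple : ∀ c, IsSimpleModule (RL V L) (S c)
  comp : ∀ c : CI V L, (c : Submodule (RL V L) V) = isotypicComponent (RL V L) V (S c)
  o : CI V L → CI V L
  hh : CI V L → H
  ho : ∀ c, hh c • o c = c
  inv : ∀ (y : H) c, o (y • c) = o c
  g : ∀ c, ℕ → S c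
  nz : ∀ c j, j ∉ Z → g c j ≠ 0
  f : ∀ c, cj (hh c) (S (o c)) →ₗ[RL V L] V
  fnz : ∀ c, f c ≠ 0
  alt : ∀ c, FH t (Lt (S c) p (simple c)) ∨
    ((∀ j < q, Gd (V := S c) p t (Lt (S c) p (simple c)) (g c j)) ∧
      ∀ i < q, ∀ j < q, ∀ γ : Gam (S c), γ • g c i = g c j → i = j)

end

variable {H V : Type u} [Group H] [AddCommGroup V] [DistribMulAction H V] {L : Subgroup H}

theorem Tw.pow [L.Normal] {U : Submodule (RL V L) V} {y : H} {φ : AU U} (h : Tw U y φ) (n : ℕ) : Tw U (y ^ n) (φ ^ n) := by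
  induction n with
  | zero => simpa using Tw.one U
  | succ n ih =>
    rw [pow_succ, pow_succ]
    exact ih.mul h

theorem Tw.zpow [L.Normal] {U : Submodule (RL V L) V} {y : H} {φ : AU U} (h : Tw U y φ) (n : ℤ) : Tw U (y ^ n) (φ ^ n) := by
  cases n with
  | ofNat n => simpa using h.pow n
  | negSucc n =>
    rw [zpow_negSucc, zpow_negSucc]
    exact (h.pow (n + 1)).inv

theorem sum_unique [Finite V] [Fintype (CI V L)] {a b : CI V L → V}
    (ha : ∀ c : CI V L, a c ∈ (c : Submodule (RL V L) V)) (hb : ∀ c : CI V L, b c ∈ (c : Submodule (RL V L) V))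
    (h : ∑ c, a c = ∑ c, b c)
    (c : CI V L) : a c = b c := by
  have h1 : iSupIndep (fun c : CI V L => (c : Submodule (RL V L) V)) :=
    (sSupIndep_iff (isotypicComponents (RL V L) V)).1 (sSupIndep_isotypicComponents (RL V L) V)
  rw [iSupIndep_iff_finsetSum_eq_zero_imp_eq_zero] at h1
  have h2 := h1 Finset.univ (fun c => a c - b c) (fun c _ => Submodule.sub_mem _ (ha c) (hb c)) (by
    rw [Finset.sum_sub_distrib, h, sub_self]) c (Finset.mem_univ c)
  exact sub_eq_zero.1 h2

/-- a property of the vectors which holds on the simple submodules -/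
theorem all_of_simple (hss : IsSemisimpleModule (RL V L) V) (P : V → Prop) (h0 : P 0) (hadd : ∀ v w, P v → P w → P (v + w))
    (h : ∀ m : Submodule (RL V L) V, IsSimpleModule (RL V L) m → ∀ v ∈ m, P v) (v : V) : P v := by
  have h1 : sSup {m : Submodule (RL V L) V | IsSimpleModule (RL V L) m} = ⊤ :=
    sSup_simples_eq_top_iff_isSemisimpleModule.2 hss
  have h2 : v ∈ ⨆ i : {m : Submodule (RL V L) V | IsSimpleModule (RL V L) m}, (i : Submodule (RL V L) V) := by
    rw [← sSup_eq_iSup', h1]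
    trivial
  exact Submodule.iSup_induction _ (motive := P) h2 (fun i x hx => h i i.2 x hx) h0 hadd

variable [Finite V] [hL : L.Normal] {p t q : ℕ} [Fact p.Prime] {Z : Set ℕ} (D : Dat V L p t q Z)

namespace Dat

theorem comp' (c : CI V L) : (c : Submodule (RL V L) V) = isotypicComponent (RL V L) V (cj (D.hh c) (D.S (D.o c))) := by
  have h1 := congrArg (fun c : CI V L => (c : Submodule (RL V L) V)) (D.ho c)
  rw [← cj_comp, ← D.comp]
  exact h1.symm

/-- the twisted embedding -/
def G (c : CI V L) : D.S (D.o c) →+ V where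
  toFun w := D.f c ⟨D.hh c • (w : V), smul_mem_cj.2 w.2⟩
  map_zero' := by
    have h1 : (⟨D.hh c • ((0 : D.S (D.o c)) : V), smul_mem_cj.2 (0 : D.S (D.o c)).2⟩ : cj (D.hh c) (D.S (D.o c))) = 0 :=
      Subtype.ext (smul_zero _)
    rw [h1, map_zero]
  map_add' x y := by
    have h1 : (⟨D.hh c • ((x + y : D.S (D.o c)) : V), smul_mem_cj.2 (x + y).2⟩ : cj (D.hh c) (D.S (D.o c))) =
        ⟨D.hh c • (x : V), smul_mem_cj.2 x.2⟩ + ⟨D.hh c • (y : V), smul_mem_cj.2 y.2⟩ := Subtype.ext (smul_add _ _ _)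
    rw [h1, map_add]

theorem f_inj (c : CI V L) : Function.Injective (D.f c) := by
  haveI := cj_simple (D.hh c) (D.simple (D.o c))
  exact (D.f c).injective_or_eq_zero.resolve_right (D.fnz c)

theorem twI (c : CI V L) : TwI (D.S (D.o c)) (D.hh c) (D.G c) where
  tw l hl u := by
    have h1 : D.hh c * l * (D.hh c)⁻¹ ∈ L := hL.conj_mem l hl _
    have h2 : (⟨D.hh c • (((lr l hl : RL V L) • u : D.S (D.o c)) : V), smul_mem_cj.2 ((lr l hl : RL V L) • u).2⟩ :
        cj (D.hh c) (D.S (D.o c))) = (lr _ h1 : RL V L) • ⟨D.hh c • (u : V), smul_mem_cj.2 u.2⟩ := by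
      apply Subtype.ext
      change D.hh c • (l • (u : V)) = (D.hh c * l * (D.hh c)⁻¹) • (D.hh c • (u : V))
      rw [← mul_smul, ← mul_smul]
      congr 1
      group
    change D.f c _ = _
    rw [h2, map_smul]
    rfl
  inj x y hxy := by
    have h1 := D.f_inj c hxy
    have h2 := congrArg Subtype.val h1
    exact Subtype.ext (MulAction.injective _ h2)

theorem mem_comp (c : CI V L) (w : D.S (D.o c)) : D.G c w ∈ (c : Submodule (RL V L) V) := by
  rw [D.comp' c]
  haveI := cj_simple (D.hh c) (D.simple (D.o c))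
  have h1 : LinearMap.range (D.f c) ≤ isotypicComponent (RL V L) V (cj (D.hh c) (D.S (D.o c))) :=
    le_sSup ⟨(LinearEquiv.ofInjective (D.f c) (D.f_inj c)).symm⟩
  exact h1 ⟨_, rfl⟩

end Dat

theorem TwI.smul {U : Submodule (RL V L) V} {h : H} {G : U →+ V} (a : TwI U h G) (y : H) :
    TwI U (y * h) ((DistribSMul.toAddMonoidHom V y).comp G) where
  tw l hl u := by
    change y • G _ = _ • y • G u
    rw [a.tw l hl, ← mul_smul, ← mul_smul]
    congr 1
    group
  inj x x' hx := a.inj (MulAction.injective y hx)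

namespace Dat

/-- the value at a component -/
def val (κ : CI V L → ℕ) (c : CI V L) : V := D.G c (D.g (D.o c) (κ c))

/-- the vector of a colouring -/
noncomputable def vec (κ : CI V L → ℕ) : V := by
  classical
  haveI : Finite (CI V L) := inferInstance
  haveI : Fintype (CI V L) := Fintype.ofFinite _
  exact ∑ c, D.val κ c

theorem smul_val {κ : CI V L → ℕ} {y : H} (hy : y • D.vec κ = D.vec κ) (c : CI V L) :
    y • D.val κ c = D.val κ (y • c) := by
  classical
  haveI : Fintype (CI V L) := Fintype.ofFinite _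
  have h1 : D.vec κ = ∑ c, D.val κ c := by
    rw [vec]
    congr!
  rw [h1, Finset.smul_sum] at hy
  have h2 : ∑ c, y • D.val κ c = ∑ c, y • D.val κ (y⁻¹ • c) :=
    (Equiv.sum_comp (MulAction.toPerm y⁻¹) (fun c => y • D.val κ c)).symm
  rw [h2] at hy
  have h3 := sum_unique (a := fun c => y • D.val κ (y⁻¹ • c)) (b := fun c => D.val κ c) (fun c => by
    have h4 := D.mem_comp (y⁻¹ • c) (D.g (D.o (y⁻¹ • c)) (κ (y⁻¹ • c)))
    have h5 := (smul_mem_comp (h := y)).2 h4
    rw [smul_inv_smul] at h5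
    exact h5) (fun c => D.mem_comp c _) hy (y • c)
  simp only [inv_smul_smul] at h3
  exact h3

theorem lab_aux {c x : CI V L} (e : x = D.o c) {h' : H} {G' : D.S x →+ V} (hG' : TwI (D.S x) h' G') {y : H} {i j : ℕ}
    (hi : i < q) (hj : j < q) (he : y • D.G c (D.g (D.o c) i) = G' (D.g x j))
    (hB : ∀ i < q, ∀ j < q, ∀ γ : Gam (D.S (D.o c)), γ • D.g (D.o c) i = D.g (D.o c) j → i = j) : i = j := by
  subst e
  by_cases hu : D.g (D.o c) i = 0
  · have h1 : D.g (D.o c) j = 0 := by
      apply hG'.inj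
      rw [← he, hu, map_zero, smul_zero, map_zero]
    apply hB i hi j hj 1
    rw [one_smul, hu, h1]
  · obtain ⟨φ, hφ1, hφ2⟩ := ((D.twI c).smul y).exists_tw (D.simple _) hG' hu (u' := D.g (D.o c) j) he
    exact hB i hi j hj ⟨φ, mem_Gam.2 ⟨_, hφ1⟩⟩ hφ2

theorem orbit_o {c c' : CI V L} (h : c' ∈ MulAction.orbit H c) : D.o c' = D.o c := by
  obtain ⟨y, rfl⟩ := h
  exact D.inv y c

theorem exists_phi {c : CI V L} {y : H} (hy : y • c = c) {u : D.S (D.o c)} (hv : y • D.G c u = D.G c u) :
    ∃ φ : AU (D.S (D.o c)), Tw (D.S (D.o c)) ((D.hh c)⁻¹ * (y * D.hh c)) φ ∧ φ u = u := by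
  by_cases hu : u = 0
  · set y' : H := (D.hh c)⁻¹ * (y * D.hh c) with hy'
    have h1 : y' • D.o c = D.o c := by
      rw [hy', mul_smul, mul_smul, D.ho, hy, inv_smul_eq_iff, D.ho]
    haveI := D.simple (D.o c)
    haveI := cj_simple y' (D.simple (D.o c))
    have h2 : cj y' (D.S (D.o c)) ≤ isotypicComponent (RL V L) V (D.S (D.o c)) := by
      rw [← D.comp]
      have h3 := congrArg (fun c : CI V L => (c : Submodule (RL V L) V)) h1
      rw [← h3]
      intro v hv
      have h4 : (y'⁻¹ • v) ∈ D.S (D.o c) := hv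
      change y'⁻¹ • v ∈ ((D.o c : CI V L) : Submodule (RL V L) V)
      rw [D.comp]
      exact (D.S (D.o c)).le_isotypicComponent h4
    obtain ⟨e⟩ := isIsotypicOfType_submodule_iff.1 (IsIsotypicOfType.isotypicComponent (RL V L) V (D.S (D.o c))) _ h2
    let F : D.S (D.o c) →ₗ[ℤ] D.S (D.o c) := (AddMonoidHom.mk' (fun w : D.S (D.o c) => e ⟨y' • (w : V), smul_mem_cj.2 w.2⟩) (by
      intro a b
      rw [← map_add]
      congr 1
      exact Subtype.ext (smul_add _ _ _))).toIntLinearMap
    have hF : Function.Injective F := by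
      intro a b hab
      have h30 : e ⟨y' • (a : V), smul_mem_cj.2 a.2⟩ = e ⟨y' • (b : V), smul_mem_cj.2 b.2⟩ := hab
      have h3 := congrArg Subtype.val (e.injective h30)
      exact Subtype.ext (MulAction.injective _ h3)
    refine ⟨LinearEquiv.ofBijective F ⟨hF, Finite.surjective_of_injective hF⟩, ?_, ?_⟩
    · intro l hl w
      have h3 : y' * l * y'⁻¹ ∈ L := hL.conj_mem l hl _
      have h4 : (⟨y' • (((lr l hl : RL V L) • w : D.S (D.o c)) : V), smul_mem_cj.2 ((lr l hl : RL V L) • w).2⟩ :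
          cj y' (D.S (D.o c))) = (lr _ h3 : RL V L) • ⟨y' • (w : V), smul_mem_cj.2 w.2⟩ := by
        apply Subtype.ext
        change y' • (l • (w : V)) = (y' * l * y'⁻¹) • (y' • (w : V))
        rw [← mul_smul, ← mul_smul]
        congr 1
        group
      have h5 : e ⟨y' • (((lr l hl : RL V L) • w : D.S (D.o c)) : V), smul_mem_cj.2 ((lr l hl : RL V L) • w).2⟩ =
          (lr _ h3 : RL V L) • e ⟨y' • (w : V), smul_mem_cj.2 w.2⟩ := by rw [h4, map_smul]
      exact congrArg Subtype.val h5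
    · rw [hu, map_zero]
  · obtain ⟨φ, h1, h2⟩ := ((D.twI c).smul y).exists_tw (D.simple _) (D.twI c) hu (u' := u) hv
    exact ⟨φ, h1, h2⟩

end Dat

end Cfsg.Agent.H478.RC
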